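import Cfsg.Agent.H419.EP.Iface
import Cfsg.Agent.H920.CsData
import Cfsg.Agent.H262.ElTransv
import Cfsg.Agent.H918.UBase
import Cfsg.Agent.Lib.Cores

/-!
# S3499, unitary groups, class 6 (helper932)

`su_c6` : `A` is not contained in the normaliser of a group `R` of symplectic type. By (T1) the elements of `SU` which
commute with a non-scalar element `v` of `R ∩ SU` normalise `R`. If `n > r`, some eigenspace of `v` contains an
isotropic vector, and a transvection normalises `R`; if `n = r`, then `diag(a, a⁻¹, 1, ..)` normalises `R`.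
-/

set_option autoImplicit false
set_option linter.unusedSectionVars false

namespace Cfsg.Agent.H932.EP

open Subgroup Cfsg Cfsg.Geo Cfsg.Agent.H284 Cfsg.Agent.H419.EP Cfsg.Agent.LieClassical.HermBasic
open scoped MatrixGroups Matrix

/-! ### (T1) -/

section T1

variable {Q : Type*} [Group Q] [Finite Q] {A : Subgroup Q} {Γ : Subgroup (MulAut Q)} (h : EPT A Γ)
variable {ι : Type} [Fintype ι] [DecidableEq ι] {F : Type*} [Field F] {S : Subgroup (GL ι F)} (m : Model Q S)

include h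

/-- an automorphism in `Γ` preserves `O_r(A)` -/
theorem pCore_inv (r : ℕ) {σ : MulAut Q} (hσ : σ ∈ Γ) {k : Q} (hk : k ∈ (pCore r A).map A.subtype) :
    σ k ∈ (pCore r A).map A.subtype := by
  let τ : A ≃* A :=
    { toFun := fun a => ⟨σ a, (h.inv σ hσ a).2 a.2⟩
      invFun := fun a => ⟨σ⁻¹ a, (h.inv σ⁻¹ (Γ.inv_mem hσ) a).2 a.2⟩
      left_inv := fun a => Subtype.ext (MulAut.inv_apply_self Q σ _)
      right_inv := fun a => Subtype.ext (MulAut.apply_inv_self Q σ _)
      map_mul' := fun a b => Subtype.ext (map_mul σ _ _) }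
  obtain ⟨a, ha, rfl⟩ := hk
  refine ⟨τ a, ?_, rfl⟩
  rw [← Lib.Cores.map_equiv_pCore τ r]
  exact ⟨a, ha, rfl⟩

/-- elements of `S` commuting with a non-scalar element of a normal `r`-subgroup of `Â` lie in `Â` -/
theorem mem_hat_of_comm {R0 : Subgroup (GL ι F)} (hRA : R0 ≤ m.hat A)
    (hRn : ∀ g ∈ m.hat A, ∀ x ∈ R0, g * x * g⁻¹ ∈ R0) {r : ℕ} [Fact r.Prime] (hp : IsPGroup r R0) {v : GL ι F}
    (hv : v ∈ R0) (hvs : v ∉ Cfsg.Geo.scalars ι F) {x : GL ι F} (hx : x ∈ S) (hxv : x * v = v * x) :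
    x ∈ m.hat A := by
  by_contra hxA
  have hx' : m.π ⟨x, hx⟩ ∉ A := fun e => hxA ((m.mem_hat_iff ⟨x, hx⟩).2 e)
  set K : Subgroup Q := (pCore r A).map A.subtype with hK
  have hvS : v ∈ S := m.hat_le A (hRA hv)
  have hvA : m.π ⟨v, hvS⟩ ∈ A := (m.mem_hat_iff ⟨v, hvS⟩).1 (hRA hv)
  -- the image of `R0` is in `K`
  have hR0 : ((R0.subgroupOf S).map m.π).subgroupOf A ≤ pCore r A := by
    apply Lib.Cores.le_pCore
    · refine ⟨?_⟩
      rintro ⟨b, hbA⟩ ⟨s, hs, hb⟩ ⟨g, hg⟩
      obtain ⟨t, rfl⟩ := m.surj g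
      refine ⟨t * s * t⁻¹, hRn _ ((m.mem_hat_iff t).2 hg) _ hs, ?_⟩
      rw [map_mul, map_mul, map_inv]
      show m.π t * m.π s * (m.π t)⁻¹ = m.π t * b * (m.π t)⁻¹
      rw [hb]
      rfl
    · refine IsPGroup.comap_subtype (IsPGroup.map ?_ m.π)
      rintro ⟨s, hs⟩
      obtain ⟨k, hk⟩ := hp ⟨s, hs⟩
      exact ⟨k, Subtype.ext (Subtype.ext (congrArg (fun y : R0 => (y : GL ι F)) hk))⟩
  have hvK : m.π ⟨v, hvS⟩ ∈ K := ⟨⟨_, hvA⟩, hR0 ⟨⟨v, hvS⟩, hv, rfl⟩, rfl⟩
  have hv1 : m.π ⟨v, hvS⟩ ≠ 1 := fun e => hvs ((m.ker ⟨v, hvS⟩).1 e)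
  have hKp : IsPGroup r K := (Lib.Cores.pCore_isPGroup r).map _
  have hKn : Group.IsNilpotent K := hKp.isNilpotent
  obtain ⟨-, -, -, h4, -⟩ := h.nilp K (by
    rintro _ ⟨a, _, rfl⟩
    exact a.2) (fun σ hσ k hk => pCore_inv h r hσ hk) hKn (fun e => hv1 (by rw [e] at hvK; exact hvK))
  have h5 := (h4 _ hx').1
  have h6 : m.π ⟨v, hvS⟩ ∈ K ⊓ cj (m.π ⟨x, hx⟩) A := by
    refine ⟨hvK, mem_cj.2 ?_⟩
    have e1 : (⟨x, hx⟩ : S) * ⟨v, hvS⟩ = ⟨v, hvS⟩ * ⟨x, hx⟩ := Subtype.ext hxv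
    have e2 : (m.π ⟨x, hx⟩)⁻¹ * m.π ⟨v, hvS⟩ * m.π ⟨x, hx⟩ = m.π ⟨v, hvS⟩ := by
      rw [mul_assoc, ← map_mul, ← e1, map_mul, inv_mul_cancel_left]
    rw [e2]
    exact hvA
  rw [h5, Subgroup.mem_bot] at h6
  exact hv1 h6

end T1

/-! ### numbers -/

theorem z_dvd {F : Type*} [Field F] [Fintype F] {q z p e : ℕ} (hF : Fintype.card F = q ^ 2)
    (hmin : IsMinimalFieldFor z p e F) (hz : z.Prime ∨ z = 4) :
    z ∣ q + 1 ∧ ¬ z ∣ q - 1 := by
  obtain ⟨hp, hchar, hcard, hd, hm⟩ := hmin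
  obtain ⟨p', j, hp', hchar', hq, hj⟩ := exists_prime_pow hF
  have hpp : p = p' := CharP.eq F hchar hchar'
  subst hpp
  have he : e = 2 * j := by
    have h1 : p ^ e = p ^ (2 * j) := by
      rw [← hcard, hF, hq, ← pow_mul, mul_comm]
    exact Nat.pow_right_injective hp.two_le h1
  have h1 : ¬ z ∣ q - 1 := by
    rw [hq]
    exact hm j hj (by omega)
  refine ⟨?_, h1⟩
  have hq0 := q_pos hF
  have h2 : z ∣ (q + 1) * (q - 1) := by
    have h3 : p ^ e - 1 = (q + 1) * (q - 1) := by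
      rw [← hcard, hF]
      obtain ⟨m, rfl⟩ : ∃ m, q = m + 1 := ⟨q - 1, by omega⟩
      have : (m + 1) ^ 2 = (m + 1 + 1) * m + 1 := by ring
      rw [this]
      simp
    rw [← h3]
    exact hd
  rcases hz with hz | rfl
  · exact (hz.dvd_mul.1 h2).resolve_right h1
  · have h4 : q % 4 = 0 ∨ q % 4 = 1 ∨ q % 4 = 2 ∨ q % 4 = 3 := by omega
    obtain ⟨m, rfl⟩ : ∃ m, q = m + 1 := ⟨q - 1, by omega⟩
    simp only [Nat.add_sub_cancel] at h1 h2
    have h5 := Nat.mod_eq_zero_of_dvd h2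
    rw [Nat.mul_mod] at h5
    have h6 : m % 4 = 0 ∨ m % 4 = 1 ∨ m % 4 = 2 ∨ m % 4 = 3 := by omega
    rcases h6 with h6 | h6 | h6 | h6
    · omega
    · have : (m + 1 + 1) % 4 = 3 := by omega
      rw [h6, this] at h5
      omega
    · omega
    · have : (m + 1 + 1) % 4 = 1 := by omega
      rw [h6, this] at h5
      omega

/-! ### the hermitian space -/

section Herm

variable {F : Type*} [Field F] [Fintype F] {n q : ℕ} (hF : Fintype.card F = q ^ 2)

include hF

theorem exists_span {V : Submodule F (Fin n → F)} (h : ∀ w ∈ V, hermForm n F q w w = 0 → w = 0) :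
    ∃ w : Fin n → F, V ≤ Submodule.span F {w} := by
  by_cases hV : V = ⊥
  · exact ⟨0, by rw [hV]; exact bot_le⟩
  obtain ⟨w, hw, hw0⟩ := Submodule.exists_mem_ne_zero_of_ne_bot hV
  refine ⟨w, ?_⟩
  intro w' hw'
  set d := hermForm n F q w w with hd
  have hd0 : d ≠ 0 := fun e => hw0 (h w hw e)
  set c := hermForm n F q w' w / d with hc
  set w'' := w' - c • w with hw''
  have hwV : w'' ∈ V := V.sub_mem hw' (V.smul_mem _ hw)
  have ho : hermForm n F q w'' w = 0 := by
    rw [hw'', herm_sub_left, herm_smul_left, hc, ← hd, div_mul_cancel₀ _ hd0, sub_self]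
  by_cases h0 : w'' = 0
  · rw [Submodule.mem_span_singleton]
    exact ⟨c, (sub_eq_zero.1 h0).symm⟩
  exfalso
  set d' := hermForm n F q w'' w'' with hd'
  have hd'0 : d' ≠ 0 := fun e => h0 (h w'' hwV e)
  obtain ⟨x, hx⟩ := exists_norm_eq hF (c := -d / d') (by
    rw [div_pow, neg_pow_q hF, hd, hd', herm_self_pow hF, herm_self_pow hF])
  have hv : hermForm n F q (w + x • w'') (w + x • w'') = 0 := by
    rw [herm_add_left, herm_add_right hF, herm_add_right hF, herm_smul_left, herm_smul_left, herm_smul_right,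
      herm_smul_right, ho, herm_eq_zero_swap hF ho, ← hd, ← hd']
    have : x * (x ^ q * d') = (x * x ^ q) * d' := by ring
    rw [this, hx, div_mul_cancel₀ _ hd'0]
    ring
  have hv0 := h _ (V.add_mem hw (V.smul_mem x hwV)) hv
  have h2 : hermForm n F q (w + x • w'') w = d := by
    rw [herm_add_left, herm_smul_left, ho, mul_zero, add_zero]
  rw [hv0, herm_zero_left] at h2
  exact hd0 h2.symm

/-- the reflection with centre `w` -/
noncomputable def refl (q : ℕ) (w : Fin n → F) (a : F) : Matrix (Fin n) (Fin n) F :=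
  Cfsg.Agent.ClassicalGeometry.UnitTransv.rankOne q (((a - 1) / hermForm n F q w w) • w) w

omit [Fintype F] hF in
theorem refl_mulVec (w : Fin n → F) (a : F) (x : Fin n → F) :
    refl q w a *ᵥ x = x + (hermForm n F q x w * ((a - 1) / hermForm n F q w w)) • w := by
  rw [refl, Cfsg.Agent.ClassicalGeometry.UnitTransv.rankOne_mulVec, smul_smul]

theorem refl_herm {w : Fin n → F} (hw : hermForm n F q w w ≠ 0) {a : F} (ha : a * a ^ q = 1) (x y : Fin n → F) :
    hermForm n F q (refl q w a *ᵥ x) (refl q w a *ᵥ y) = hermForm n F q x y := by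
  rw [refl_mulVec, refl_mulVec]
  set d := hermForm n F q w w with hd
  have hdq : d ^ q = d := herm_self_pow hF w
  rw [herm_add_left, herm_add_right hF, herm_add_right hF, herm_smul_left, herm_smul_left, herm_smul_right,
    herm_smul_right, ← hd, mul_pow, div_pow, hdq, sub_pow_q hF, one_pow, ← herm_swap hF y w]
  have : ∀ A B : F, hermForm n F q x y + B * ((a ^ q - 1) / d) * A + (A * ((a - 1) / d) * B +
      A * ((a - 1) / d) * (B * ((a ^ q - 1) / d) * d)) = hermForm n F q x y + A * B * (a * a ^ q - 1) / d := by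
    intro A B
    field_simp
    ring
  rw [this, ha, sub_self, mul_zero, zero_div, add_zero]

omit [Fintype F] hF in
theorem refl_det {w : Fin n → F} (hw : hermForm n F q w w ≠ 0) (a : F) : (refl q w a).det = a := by
  rw [refl, Cfsg.Agent.ClassicalGeometry.UnitTransv.det_rankOne, herm_smul_left, div_mul_cancel₀ _ hw]
  ring

omit [Fintype F] hF in
theorem refl_self {w : Fin n → F} (hw : hermForm n F q w w ≠ 0) (a : F) : refl q w a *ᵥ w = a • w := by
  rw [refl_mulVec, mul_div_cancel₀ _ hw]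
  module

omit [Fintype F] hF in
theorem refl_orth {w : Fin n → F} (a : F) {x : Fin n → F} (hx : hermForm n F q x w = 0) :
    refl q w a *ᵥ x = x := by
  rw [refl_mulVec, hx, zero_mul, zero_smul, add_zero]


omit [Fintype F] hF in
theorem ext_mulVec {M N : Matrix (Fin n) (Fin n) F} (h : ∀ x, M *ᵥ x = N *ᵥ x) : M = N :=
  Matrix.toLin'.injective (LinearMap.ext fun x => by rw [Matrix.toLin'_apply, Matrix.toLin'_apply, h])

theorem herm_eig {u : GL (Fin n) F} (hu : u ∈ Cfsg.GU n F q) {w : Fin n → F} {l : F} (hl : l * l ^ q = 1)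
    (hw : (u : Matrix (Fin n) (Fin n) F) *ᵥ w = l • w) (x : Fin n → F) :
    hermForm n F q ((u : Matrix (Fin n) (Fin n) F) *ᵥ x) w = l * hermForm n F q x w := by
  have h1 := H918.mem_GU.1 hu x w
  rw [hw, herm_smul_right] at h1
  rw [← h1, ← mul_assoc, hl, one_mul]

theorem tv_comm {u : GL (Fin n) F} (hu : u ∈ Cfsg.GU n F q) {w : Fin n → F} {l : F} (hl : l * l ^ q = 1)
    (hw : (u : Matrix (Fin n) (Fin n) F) *ᵥ w = l • w) {c : F} (hv : hermForm n F q w w = 0) (hc : c + c ^ q = 0) :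
    H918.tv hF w c hv hc * u = u * H918.tv hF w c hv hc := by
  apply Units.ext
  apply ext_mulVec
  intro x
  rw [Units.val_mul, Units.val_mul, ← Matrix.mulVec_mulVec, ← Matrix.mulVec_mulVec, H918.tv_mulVec, H918.tv_mulVec,
    herm_eig hF hu hl hw, Matrix.mulVec_add, Matrix.mulVec_smul, hw]
  module

theorem refl_comm {u : GL (Fin n) F} (hu : u ∈ Cfsg.GU n F q) {w : Fin n → F} {l : F} (hl : l * l ^ q = 1)
    (hw : (u : Matrix (Fin n) (Fin n) F) *ᵥ w = l • w) (a : F) :
    refl q w a * (u : Matrix (Fin n) (Fin n) F) = u * refl q w a := by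
  apply ext_mulVec
  intro x
  rw [← Matrix.mulVec_mulVec, ← Matrix.mulVec_mulVec, refl_mulVec, refl_mulVec,
    herm_eig hF hu hl hw, Matrix.mulVec_add, Matrix.mulVec_smul, hw]
  module

theorem isTv_tv {v : Fin n → F} {c : F} (hv : hermForm n F q v v = 0)
    (hc : c + c ^ q = 0) (hv0 : v ≠ 0) (hc0 : c ≠ 0) : H262.El.IsTv (H918.tv hF v c hv hc) := by
  refine ⟨v, c • (fun j => v j ^ q), hv0, ?_, ?_, ?_⟩
  · intro h
    apply hv0
    funext j
    have := congrFun h j
    rw [Pi.smul_apply, smul_eq_mul, Pi.zero_apply] at this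
    exact (pow_q_eq_zero hF).1 ((mul_eq_zero.1 this).resolve_left hc0)
  · rw [smul_dotProduct]
    have : (fun j => v j ^ q) ⬝ᵥ v = hermForm n F q v v :=
      Finset.sum_congr rfl fun i _ => mul_comm _ _
    rw [this, hv, smul_zero]
  · rw [H918.coe_tv, Matrix.vecMulVec_smul]

omit [Fintype F] hF in
theorem eig_aux {u : Matrix (Fin n) (Fin n) F} {r : ℕ} (hur : u ^ r = 1) {ρ : F} (hρ : ρ ^ r = 1) (x : Fin n → F) :
    ρ • (u *ᵥ ∑ j ∈ Finset.range r, ρ ^ j • (u ^ j *ᵥ x)) = ∑ j ∈ Finset.range r, ρ ^ j • (u ^ j *ᵥ x) := by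
  have h1 : ρ • (u *ᵥ ∑ j ∈ Finset.range r, ρ ^ j • (u ^ j *ᵥ x)) =
      ∑ j ∈ Finset.range r, ρ ^ (j + 1) • (u ^ (j + 1) *ᵥ x) := by
    rw [Matrix.mulVec_sum, Finset.smul_sum]
    refine Finset.sum_congr rfl fun j _ => ?_
    rw [Matrix.mulVec_smul, Matrix.mulVec_mulVec, smul_smul, pow_succ' ρ, pow_succ' u]
  rw [h1]
  have h2 := Finset.sum_range_succ (fun j => ρ ^ j • (u ^ j *ᵥ x)) r
  rw [Finset.sum_range_succ' (fun j => ρ ^ j • (u ^ j *ᵥ x)) r, hur, hρ, pow_zero, pow_zero] at h2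
  exact add_right_cancel h2

omit [Fintype F] hF in
theorem decomp {u : Matrix (Fin n) (Fin n) F} {r : ℕ} (hur : u ^ r = 1) {ζ : F}
    (hζ : IsPrimitiveRoot ζ r) (hr0 : (r : F) ≠ 0) (x : Fin n → F) :
    ∃ d : Fin r → (Fin n → F), (∀ i, u *ᵥ d i = ζ ^ (i : ℕ) • d i) ∧ x = ∑ i, d i := by
  have hζ0 : ζ ≠ 0 := by
    rintro rfl
    have := hζ.pow_eq_one
    rcases Nat.eq_zero_or_pos r with rfl | hr
    · exact hr0 Nat.cast_zero
    · rw [zero_pow hr.ne'] at this
      exact zero_ne_one this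
  set ρ : ℕ → F := fun i => (ζ⁻¹) ^ i with hρ
  have hρr : ∀ i, (ρ i) ^ r = 1 := by
    intro i
    rw [hρ]
    show ((ζ⁻¹) ^ i) ^ r = 1
    rw [← pow_mul, mul_comm, pow_mul, inv_pow, hζ.pow_eq_one, inv_one, one_pow]
  refine ⟨fun i => (r : F)⁻¹ • ∑ j ∈ Finset.range r, (ρ i) ^ j • (u ^ j *ᵥ x), ?_, ?_⟩
  · intro i
    have h1 := eig_aux hur (hρr i) x
    have h2 : ζ ^ (i : ℕ) * ρ i = 1 := by
      show ζ ^ (i : ℕ) * (ζ⁻¹) ^ (i : ℕ) = 1
      rw [← mul_pow, mul_inv_cancel₀ hζ0, one_pow]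
    show u *ᵥ ((r : F)⁻¹ • ∑ j ∈ Finset.range r, (ρ i) ^ j • (u ^ j *ᵥ x)) = _
    rw [Matrix.mulVec_smul, smul_comm]
    congr 1
    conv_rhs => rw [← h1, smul_smul, h2, one_smul]
  · show x = ∑ i : Fin r, (r : F)⁻¹ • ∑ j ∈ Finset.range r, (ρ i) ^ j • (u ^ j *ᵥ x)
    rw [← Finset.smul_sum, Fin.sum_univ_eq_sum_range (fun i => ∑ j ∈ Finset.range r, (ρ i) ^ j • (u ^ j *ᵥ x)) r,
      Finset.sum_comm]
    have h3 : ∀ j ∈ Finset.range r, ∑ i ∈ Finset.range r, (ρ i) ^ j • (u ^ j *ᵥ x) =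
        if j = 0 then (r : F) • x else 0 := by
      intro j hj
      rw [← Finset.sum_smul]
      split_ifs with h0
      · subst h0
        simp
      · have h4 : ∑ i ∈ Finset.range r, (ρ i) ^ j = 0 := by
          have h5 : ∀ i, (ρ i) ^ j = ((ζ⁻¹) ^ j) ^ i := by
            intro i
            show ((ζ⁻¹) ^ i) ^ j = _
            rw [← pow_mul, ← pow_mul, mul_comm]
          rw [Finset.sum_congr rfl fun i _ => h5 i]
          have h6 := geom_sum_mul ((ζ⁻¹) ^ j) r
          have h7 : ((ζ⁻¹) ^ j) ^ r = 1 := hρr j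
          rw [h7, sub_self] at h6
          refine (mul_eq_zero.1 h6).resolve_right ?_
          intro h8
          rw [sub_eq_zero, inv_pow, inv_eq_one] at h8
          exact hζ.pow_ne_one_of_pos_of_lt h0 (Finset.mem_range.1 hj) h8
        rw [h4, zero_smul]
    rw [Finset.sum_congr rfl h3, Finset.sum_ite_eq']
    have h9 : 0 ∈ Finset.range r := by
      rw [Finset.mem_range]
      rcases Nat.eq_zero_or_pos r with rfl | hr
      · exact absurd Nat.cast_zero hr0
      · exact hr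
    rw [if_pos h9, smul_smul, inv_mul_cancel₀ hr0, one_smul]

theorem exists_isotropic_eig {u : Matrix (Fin n) (Fin n) F} {r : ℕ} (hur : u ^ r = 1) {ζ : F}
    (hζ : IsPrimitiveRoot ζ r) (hr0 : (r : F) ≠ 0) (hn : r < n) :
    ∃ (w : Fin n → F) (l : F), w ≠ 0 ∧ l ^ r = 1 ∧ u *ᵥ w = l • w ∧ hermForm n F q w w = 0 := by
  by_contra hcon
  push Not at hcon
  have h1 : ∀ i : Fin r, ∃ w : Fin n → F, ∀ v, u *ᵥ v = ζ ^ (i : ℕ) • v → v ∈ Submodule.span F {w} := by
    intro i
    obtain ⟨w, hw⟩ := exists_span hF (V := Module.End.eigenspace (Matrix.toLin' u) (ζ ^ (i : ℕ))) (by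
      intro w hw h0
      rw [Module.End.mem_eigenspace_iff, Matrix.toLin'_apply] at hw
      by_contra hw0
      exact hcon w (ζ ^ (i : ℕ)) hw0 (by rw [← pow_mul, mul_comm, pow_mul, hζ.pow_eq_one, one_pow]) hw h0)
    refine ⟨w, fun v hv => hw ?_⟩
    rw [Module.End.mem_eigenspace_iff, Matrix.toLin'_apply]
    exact hv
  choose w hw using h1
  have h2 : (⊤ : Submodule F (Fin n → F)) ≤ Submodule.span F (Set.range w) := by
    intro x _
    obtain ⟨d, hd, hx⟩ := decomp hur hζ hr0 x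
    rw [hx]
    refine Submodule.sum_mem _ fun i _ => ?_
    exact Submodule.span_mono (Set.singleton_subset_iff.2 (Set.mem_range_self i)) (hw i _ (hd i))
  have h3 : (Set.range w).finrank F ≤ Fintype.card (Fin r) := finrank_range_le_card w
  rw [Set.finrank, top_le_iff.1 h2, finrank_top, Module.finrank_fintype_fun_eq_card, Fintype.card_fin,
    Fintype.card_fin] at h3
  omega


/-- an element of norm one and order not dividing three -/
theorem exists_norm_one (hq : 2 < q) : ∃ a : F, a * a ^ q = 1 ∧ a ^ 3 ≠ 1 := by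
  classical
  by_contra hcon
  push Not at hcon
  have h1 := card_norm_eq_one hF
  have h2 : Nat.card {x : F // x * x ^ q = 1} ≤ (Polynomial.nthRoots 3 (1 : F)).toFinset.card := by
    rw [Nat.card_eq_fintype_card, Fintype.card_subtype]
    apply Finset.card_le_card
    intro x hx
    rw [Multiset.mem_toFinset, Polynomial.mem_nthRoots (by norm_num)]
    exact hcon x (Finset.mem_filter.1 hx).2
  have h3 : (Polynomial.nthRoots 3 (1 : F)).toFinset.card ≤ 3 :=
    (Multiset.toFinset_card_le _).trans (Polynomial.card_nthRoots 3 1)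
  omega

theorem case_eq (hn3 : 3 ≤ n) (hodd : Odd n) (hq : 2 < q) {u y : GL (Fin n) F} (hu : u ∈ Cfsg.GU n F q)
    (hy : y ∈ Cfsg.GU n F q) (hun : u ^ n = 1) (hyn : y ^ n = 1) {μ : F} (hμ : IsPrimitiveRoot μ n) (hn0 : (n : F) ≠ 0)
    (huy : (u : Matrix (Fin n) (Fin n) F) * y = μ • ((y : Matrix (Fin n) (Fin n) F) * u)) (hnq : n ∣ q + 1)
    (H : ∀ t ∈ H918.SUg n F q, t * u = u * t → ∃ c : F,
      ((y * (y * t * y⁻¹ * t⁻¹) : GL (Fin n) F) : Matrix (Fin n) (Fin n) F) =
        c • (((y * t * y⁻¹ * t⁻¹) * y : GL (Fin n) F) : Matrix (Fin n) (Fin n) F)) : False := by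
  have hnorm : ∀ x : F, x ^ n = 1 → x * x ^ q = 1 := by
    intro x hx
    obtain ⟨m, hm⟩ := hnq
    rw [← pow_succ', hm, pow_mul, hx, one_pow]
  have hune : ((u : GL (Fin n) F) : Matrix (Fin n) (Fin n) F) ^ n = 1 := by
    rw [← Units.val_pow_eq_pow_val, hun, Units.val_one]
  have hyne : ((y : GL (Fin n) F) : Matrix (Fin n) (Fin n) F) ^ n = 1 := by
    rw [← Units.val_pow_eq_pow_val, hyn, Units.val_one]
  -- an eigenvector
  obtain ⟨e0, l, he0, hl, hle⟩ : ∃ (w : Fin n → F) (l : F), w ≠ 0 ∧ l ^ n = 1 ∧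
      (u : Matrix (Fin n) (Fin n) F) *ᵥ w = l • w := by
    obtain ⟨d, hd, hx⟩ := decomp hune hμ hn0 (Pi.single ⟨0, by omega⟩ 1)
    by_contra hcon
    push Not at hcon
    have h0 : ∀ i, d i = 0 := by
      intro i
      by_contra h0
      exact hcon (d i) (μ ^ (i : ℕ)) h0 (by rw [← pow_mul, mul_comm, pow_mul, hμ.pow_eq_one, one_pow]) (hd i)
    rw [Finset.sum_eq_zero fun i _ => h0 i] at hx
    have := congrFun hx ⟨0, by omega⟩
    rw [Pi.single_eq_same, Pi.zero_apply] at this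
    exact one_ne_zero this
  set e : ℕ → (Fin n → F) := fun i => (y : Matrix (Fin n) (Fin n) F) ^ i *ᵥ e0 with he
  have hes : ∀ i, (y : Matrix (Fin n) (Fin n) F) *ᵥ e i = e (i + 1) := by
    intro i
    show (y : Matrix (Fin n) (Fin n) F) *ᵥ ((y : Matrix (Fin n) (Fin n) F) ^ i *ᵥ e0) = _
    rw [Matrix.mulVec_mulVec, ← pow_succ']
  have hez : e 0 = e0 := by
    show (y : Matrix (Fin n) (Fin n) F) ^ 0 *ᵥ e0 = e0
    rw [pow_zero, Matrix.one_mulVec]
  have hen : e n = e 0 := by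
    show (y : Matrix (Fin n) (Fin n) F) ^ n *ᵥ e0 = _
    rw [hyne, Matrix.one_mulVec, hez]
  have hue : ∀ i, (u : Matrix (Fin n) (Fin n) F) *ᵥ e i = (l * μ ^ i) • e i := by
    intro i
    induction i with
    | zero => rw [hez, pow_zero, mul_one, hle]
    | succ i ih =>
      rw [← hes i, Matrix.mulVec_mulVec, huy, Matrix.smul_mulVec, ← Matrix.mulVec_mulVec, ih, Matrix.mulVec_smul,
        smul_smul]
      congr 1
      ring
  have hμq : ∀ i : ℕ, (l * μ ^ i) * (l * μ ^ i) ^ q = 1 := by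
    intro i
    apply hnorm
    rw [mul_pow, hl, ← pow_mul, mul_comm i, pow_mul, hμ.pow_eq_one, one_pow, mul_one]
  have hl0 : l ≠ 0 := by
    rintro rfl
    rw [zero_pow (by omega)] at hl
    exact zero_ne_one hl
  have hinj : ∀ i < n, ∀ j < n, l * μ ^ i = l * μ ^ j → i = j := by
    intro i hi j hj h
    exact hμ.pow_inj hi hj (mul_left_cancel₀ hl0 h)
  have horth : ∀ i < n, ∀ j < n, i ≠ j → hermForm n F q (e i) (e j) = 0 := by
    intro i hi j hj hij
    have h1 := herm_eig hF hu (hμq j) (hue j) (e i)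
    rw [hue i, herm_smul_left] at h1
    by_contra h0
    exact hij (hinj i hi j hj (mul_right_cancel₀ h0 h1))
  have hene : ∀ i, e i ≠ 0 := by
    intro i h0
    induction i with
    | zero => exact he0 (by rw [← hez, h0])
    | succ i ih =>
      apply ih
      have h1 := hes i
      rw [h0] at h1
      have h2 : ((y⁻¹ : GL (Fin n) F) : Matrix (Fin n) (Fin n) F) *ᵥ ((y : Matrix (Fin n) (Fin n) F) *ᵥ e i) = e i := by
        rw [Matrix.mulVec_mulVec, ← Units.val_mul, inv_mul_cancel, Units.val_one, Matrix.one_mulVec]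
      rw [← h2, h1, Matrix.mulVec_zero]
  have hlin : LinearIndependent F (fun i : Fin n => e i) := by
    apply Module.End.eigenvectors_linearIndependent' (Matrix.toLin' (u : Matrix (Fin n) (Fin n) F))
      (fun i : Fin n => l * μ ^ (i : ℕ))
    · intro i j h
      exact Fin.ext (hinj i i.2 j j.2 h)
    · intro i
      refine ⟨?_, hene i⟩
      rw [Module.End.mem_eigenspace_iff, Matrix.toLin'_apply]
      exact hue i
  have hself : ∀ i, hermForm n F q (e i) (e i) = hermForm n F q e0 e0 := by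
    intro i
    induction i with
    | zero => rw [hez]
    | succ i ih => rw [← hes i, H918.mem_GU.1 hy, ih]
  have hd0 : hermForm n F q e0 e0 ≠ 0 := by
    intro h0
    have : Nonempty (Fin n) := ⟨⟨0, by omega⟩⟩
    have hb : ∃ b : Module.Basis (Fin n) F (Fin n → F), ∀ i : Fin n, b i = e i :=
      ⟨basisOfLinearIndependentOfCardEqFinrank hlin (by simp), fun i => by
        rw [coe_basisOfLinearIndependentOfCardEqFinrank]⟩
    obtain ⟨b, hb⟩ := hb
    have h1 : ∀ v, hermForm n F q e0 v = 0 := by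
      intro v
      rw [← b.sum_repr v, herm_sum_right hF]
      refine Finset.sum_eq_zero fun i _ => ?_
      rw [herm_smul_right, hb]
      by_cases hi : (i : ℕ) = 0
      · rw [hi, hez, h0, mul_zero]
      · rw [← hez, horth 0 (by omega) i i.2 (Ne.symm hi), mul_zero]
    exact he0 (herm_nondeg hF h1)
  obtain ⟨a, ha, ha3⟩ := exists_norm_one hF hq
  have ha0 : a ≠ 0 := by
    rintro rfl
    rw [zero_mul] at ha
    exact zero_ne_one ha
  have hai : a⁻¹ * a⁻¹ ^ q = 1 := by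
    rw [inv_pow, ← mul_inv, ha, inv_one]
  have hd1 : hermForm n F q (e 0) (e 0) ≠ 0 := by rw [hself]; exact hd0
  have hd2 : hermForm n F q (e 1) (e 1) ≠ 0 := by rw [hself]; exact hd0
  set T : Matrix (Fin n) (Fin n) F := refl q (e 0) a * refl q (e 1) a⁻¹ with hT
  have hTd : T.det = 1 := by
    rw [hT, Matrix.det_mul, refl_det hd1, refl_det hd2, mul_inv_cancel₀ ha0]
  let t : GL (Fin n) F := Matrix.GeneralLinearGroup.mkOfDetNeZero T (by rw [hTd]; exact one_ne_zero)
  have ht : (t : Matrix (Fin n) (Fin n) F) = T := rfl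
  have htS : t ∈ H918.SUg n F q := by
    rw [H918.mem_SUg, ht]
    refine ⟨fun x z => ?_, hTd⟩
    rw [hT, ← Matrix.mulVec_mulVec, ← Matrix.mulVec_mulVec, refl_herm hF hd1 ha, refl_herm hF hd2 hai]
  have htu : t * u = u * t := by
    apply Units.ext
    rw [Units.val_mul, Units.val_mul, ht, hT, Matrix.mul_assoc, refl_comm hF hu (hμq 1) (hue 1), ← Matrix.mul_assoc,
      refl_comm hF hu (hμq 0) (hue 0), Matrix.mul_assoc]
  obtain ⟨c, hc⟩ := H t htS htu
  -- the action of `t`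
  have ht0 : (t : Matrix (Fin n) (Fin n) F) *ᵥ e 0 = a • e 0 := by
    rw [ht, hT, ← Matrix.mulVec_mulVec, refl_orth _ (horth 0 (by omega) 1 (by omega) (by omega)), refl_self hd1]
  have ht1 : (t : Matrix (Fin n) (Fin n) F) *ᵥ e 1 = a⁻¹ • e 1 := by
    rw [ht, hT, ← Matrix.mulVec_mulVec, refl_self hd2, Matrix.mulVec_smul,
      refl_orth _ (horth 1 (by omega) 0 (by omega) (by omega))]
  have ht2 : ∀ i < n, 2 ≤ i → (t : Matrix (Fin n) (Fin n) F) *ᵥ e i = (1 : F) • e i := by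
    intro i hi h2
    rw [ht, hT, ← Matrix.mulVec_mulVec, refl_orth _ (horth i hi 1 (by omega) (by omega)),
      refl_orth _ (horth i hi 0 (by omega) (by omega)), one_smul]
  have hinv : ∀ (z : GL (Fin n) F) (x : Fin n → F) (s : F), s ≠ 0 → (z : Matrix (Fin n) (Fin n) F) *ᵥ x = s • x →
      ((z⁻¹ : GL (Fin n) F) : Matrix (Fin n) (Fin n) F) *ᵥ x = s⁻¹ • x := by
    intro z x s hs h
    have h2 : ((z⁻¹ : GL (Fin n) F) : Matrix (Fin n) (Fin n) F) *ᵥ ((z : Matrix (Fin n) (Fin n) F) *ᵥ x) = x := by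
      rw [Matrix.mulVec_mulVec, ← Units.val_mul, inv_mul_cancel, Units.val_one, Matrix.one_mulVec]
    rw [h, Matrix.mulVec_smul] at h2
    rw [← h2, smul_smul, inv_mul_cancel₀ hs, one_smul, h2]
  have hyi : ∀ i, ((y⁻¹ : GL (Fin n) F) : Matrix (Fin n) (Fin n) F) *ᵥ e (i + 1) = e i := by
    intro i
    rw [← hes i, Matrix.mulVec_mulVec, ← Units.val_mul, inv_mul_cancel, Units.val_one, Matrix.one_mulVec]
  have hg : ∀ (i : ℕ) (s s' : F), s' ≠ 0 → (t : Matrix (Fin n) (Fin n) F) *ᵥ e i = s • e i →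
      (t : Matrix (Fin n) (Fin n) F) *ᵥ e (i + 1) = s' • e (i + 1) →
      ((y * t * y⁻¹ * t⁻¹ : GL (Fin n) F) : Matrix (Fin n) (Fin n) F) *ᵥ e (i + 1) = (s * s'⁻¹) • e (i + 1) := by
    intro i s s' hs' h1 h2
    rw [Units.val_mul, Units.val_mul, Units.val_mul, ← Matrix.mulVec_mulVec, hinv t _ _ hs' h2, Matrix.mulVec_smul,
      ← Matrix.mulVec_mulVec, ← Matrix.mulVec_mulVec, hyi, h1, Matrix.mulVec_smul, hes, smul_smul, mul_comm]
  have hrel : ∀ (i : ℕ) (s s' s'' : F), s' ≠ 0 → s'' ≠ 0 → (t : Matrix (Fin n) (Fin n) F) *ᵥ e i = s • e i →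
      (t : Matrix (Fin n) (Fin n) F) *ᵥ e (i + 1) = s' • e (i + 1) →
      (t : Matrix (Fin n) (Fin n) F) *ᵥ e (i + 2) = s'' • e (i + 2) → s * s'' = c * s' ^ 2 := by
    intro i s s' s'' hs' hs'' h1 h2 h3
    have h4 := congrArg (fun M : Matrix (Fin n) (Fin n) F => M *ᵥ e (i + 1)) hc
    simp only [Matrix.smul_mulVec] at h4
    rw [Units.val_mul, Units.val_mul (y * t * y⁻¹ * t⁻¹) y, ← Matrix.mulVec_mulVec, ← Matrix.mulVec_mulVec,
      hg i s s' hs' h1 h2, Matrix.mulVec_smul, hes (i + 1), hg (i + 1) s' s'' hs'' h2 h3, smul_smul] at h4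
    have h5 : s * s'⁻¹ = c * (s' * s''⁻¹) := smul_left_injective F (hene (i + 1 + 1)) h4
    field_simp at h5
    linear_combination h5
  have hai0 : a⁻¹ ≠ 0 := inv_ne_zero ha0
  have r0 := hrel 0 a a⁻¹ 1 hai0 one_ne_zero ht0 ht1 (ht2 2 (by omega) le_rfl)
  have hc1 : c = 1 := by
    rcases Nat.lt_or_ge 4 n with h4 | h4
    · have r2 := hrel 2 1 1 1 one_ne_zero one_ne_zero (ht2 2 (by omega) le_rfl) (ht2 3 (by omega) (by omega))
        (ht2 4 (by omega) (by omega))
      rw [one_mul, one_pow, mul_one] at r2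
      exact r2.symm
    · have hn : n = 3 := by
        obtain ⟨m, hm⟩ := hodd
        omega
      have h3 : (t : Matrix (Fin n) (Fin n) F) *ᵥ e 3 = a • e 3 := by
        have : e 3 = e 0 := by
          rw [← hen]
          exact congrArg e hn.symm
        rw [this, ht0]
      have r1 := hrel 1 a⁻¹ 1 a one_ne_zero ha0 ht1 (ht2 2 (by omega) le_rfl) h3
      rw [inv_mul_cancel₀ ha0, one_pow, mul_one] at r1
      exact r1.symm
  rw [hc1, one_mul, mul_one] at r0
  apply ha3
  have h6 : a ^ 3 = a * a ^ 2 := by ring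
  rw [h6]
  nth_rewrite 1 [r0]
  rw [inv_pow, inv_mul_cancel₀ (pow_ne_zero 2 ha0)]


/-- the similarity factor -/
noncomputable def mult (hn : 0 < n) (q : ℕ) (g : GL (Fin n) F) : F :=
  hermForm n F q ((g : Matrix (Fin n) (Fin n) F) *ᵥ Pi.single ⟨0, hn⟩ 1)
    ((g : Matrix (Fin n) (Fin n) F) *ᵥ Pi.single ⟨0, hn⟩ 1)

theorem mult_spec (hn : 0 < n) {g : GL (Fin n) F} (hg : g ∈ similarityGroup (hermForm n F q)) :
    (∀ u v, hermForm n F q ((g : Matrix (Fin n) (Fin n) F) *ᵥ u) ((g : Matrix (Fin n) (Fin n) F) *ᵥ v) =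
      mult hn q g * hermForm n F q u v) ∧ mult hn q g ≠ 0 := by
  obtain ⟨c, hc⟩ := hg
  have h1 : mult hn q g = c := by
    rw [mult, hc, herm_single_left, Pi.single_eq_same, one_pow, mul_one, mul_one]
  rw [h1]
  exact ⟨hc, c.ne_zero⟩

theorem mult_pow (hn : 0 < n) {g : GL (Fin n) F} (hg : g ∈ similarityGroup (hermForm n F q)) (j : ℕ) :
    mult hn q (g ^ j) = (mult hn q g) ^ j := by
  induction j with
  | zero =>
    rw [pow_zero, pow_zero, mult, Units.val_one, Matrix.one_mulVec, herm_single_left, Pi.single_eq_same, one_pow,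
      mul_one]
  | succ j ih =>
    rw [pow_succ', pow_succ', ← ih]
    conv_lhs => rw [mult, Units.val_mul, ← Matrix.mulVec_mulVec, (mult_spec hF hn hg).1]
    rfl

theorem mult_one_of (hn : 0 < n) {g : GL (Fin n) F} (hg : g ∈ similarityGroup (hermForm n F q))
    (h1 : mult hn q g = 1) : g ∈ Cfsg.GU n F q := by
  rw [H918.mem_GU]
  intro u v
  rw [(mult_spec hF hn hg).1, h1, one_mul]

theorem mult_pow_q (hn : 0 < n) {g : GL (Fin n) F} (hg : g ∈ similarityGroup (hermForm n F q)) :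
    (mult hn q g) ^ (q - 1) = 1 := by
  have h1 : (mult hn q g) ^ q = mult hn q g := herm_self_pow hF _
  have h2 := (mult_spec hF hn hg).2
  have h3 : (mult hn q g) ^ (q - 1) * mult hn q g = 1 * mult hn q g := by
    rw [← pow_succ, Nat.sub_add_cancel (q_pos hF), h1, one_mul]
  exact mul_right_cancel₀ h2 h3

theorem div_mem_GU (hn : 0 < n) {g g' : GL (Fin n) F} (hg : g ∈ similarityGroup (hermForm n F q))
    (hg' : g' ∈ similarityGroup (hermForm n F q)) (he : mult hn q g = mult hn q g') :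
    g⁻¹ * g' ∈ Cfsg.GU n F q := by
  rw [H918.mem_GU]
  intro u v
  have h1 := (mult_spec hF hn hg).1 (((g⁻¹ * g' : GL (Fin n) F) : Matrix (Fin n) (Fin n) F) *ᵥ u)
    (((g⁻¹ * g' : GL (Fin n) F) : Matrix (Fin n) (Fin n) F) *ᵥ v)
  rw [Matrix.mulVec_mulVec, Matrix.mulVec_mulVec, ← Units.val_mul, mul_inv_cancel_left, (mult_spec hF hn hg').1,
    ← he] at h1
  exact (mul_left_cancel₀ (mult_spec hF hn hg).2 h1).symm

end Herm

theorem card_le_mul {G : Type*} [Group G] [Finite G] {α : Type*} [DecidableEq α] (φ : G → α) (H : Subgroup G)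
    (h : ∀ x y, φ x = φ y → x⁻¹ * y ∈ H) (T : Finset α) (hT : ∀ x, φ x ∈ T) :
    Nat.card G ≤ Nat.card H * T.card := by
  classical
  have : Fintype G := Fintype.ofFinite G
  rw [Nat.card_eq_fintype_card, ← Finset.card_univ]
  refine Finset.card_le_mul_card_image_of_maps_to (fun x _ => hT x) _ ?_
  intro b _
  by_cases he : (Finset.univ.filter fun a => φ a = b) = ∅
  · rw [he, Finset.card_empty]
    exact Nat.zero_le _
  · obtain ⟨x0, hx0⟩ := Finset.nonempty_iff_ne_empty.2 he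
    rw [Finset.mem_filter] at hx0
    rw [Nat.card_eq_fintype_card, ← Finset.card_univ]
    refine Finset.card_le_card_of_injOn (fun x => if hx : x0⁻¹ * x ∈ H then (⟨x0⁻¹ * x, hx⟩ : H) else 1)
      (fun _ _ => Finset.mem_coe.2 (Finset.mem_univ _)) ?_
    intro x hx y hy hxy
    rw [Finset.mem_coe, Finset.mem_filter] at hx hy
    have h1 := h x0 x (hx0.2.trans hx.2.symm)
    have h2 := h x0 y (hx0.2.trans hy.2.symm)
    simp only [h1, h2, dif_pos] at hxy
    exact mul_left_cancel (Subtype.ext_iff.1 hxy)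

section R

variable {F : Type*} [Field F] [Fintype F] {n q r k : ℕ} {R : Subgroup (GL (Fin n) F)}

theorem exponent_of_type (hR : IsSymplecticTypeGroup r R) (ht : H920.IsType r k R) :
    ∀ x ∈ R, x ^ Nat.card (Subgroup.center R) = 1 := by
  intro x hx
  have h1 : (⟨x, hx⟩ : R) ^ Monoid.exponent R = 1 := Monoid.pow_exponent_eq_one _
  have h2 : Monoid.exponent R = Nat.card (Subgroup.center R) := by
    rw [hR.exponent_eq]
    rcases ht with ⟨hodd, hZ, -⟩ | ⟨rfl, hZ, -⟩
    · rw [(Nat.coprime_two_left.mpr hodd).gcd_eq_one, mul_one, hZ]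
    · rw [hZ]; norm_num
  rw [h2] at h1
  exact congrArg Subtype.val h1

theorem exists_ns (hF : Fintype.card F = q ^ 2) (hn : 3 ≤ n) (hR : IsSymplecticTypeGroup r R)
    (habs : ActsAbsolutelyIrreducibly (matrixSet R)) (ht : H920.IsType r k R) (hk : 1 ≤ k)
    (hsim : R ≤ similarityGroup (hermForm n F q)) (hz : ¬ Nat.card (Subgroup.center R) ∣ q - 1) :
    (∃ v, v ∈ R ⊓ H918.SUg n F q ∧ v ∉ scalars (Fin n) F) ∧ (Odd r → R ≤ Cfsg.GU n F q) := by
  classical
  have hne : Nonempty (Fin n) := ⟨⟨0, by omega⟩⟩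
  have hn0 : 0 < n := by omega
  have hcard := H920.card_of_type hR habs ht
  rw [Fintype.card_fin] at hcard
  have hexp := exponent_of_type hR ht
  have hord : ∀ x ∈ R, orderOf (mult hn0 q x) ∣ Nat.card (Subgroup.center R) ∧ orderOf (mult hn0 q x) ∣ q - 1 := by
    intro x hx
    constructor
    · apply orderOf_dvd_of_pow_eq_one
      rw [← mult_pow hF hn0 (hsim hx), hexp x hx]
      have := mult_pow hF hn0 (hsim hx) 0
      rwa [pow_zero, pow_zero] at this
    · exact orderOf_dvd_of_pow_eq_one (mult_pow_q hF hn0 (hsim hx))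
  have hodd1 : Odd r → ∀ x ∈ R, mult hn0 q x = 1 := by
    intro hodd x hx
    have hZ : Nat.card (Subgroup.center R) = r := by
      rcases ht with h | h
      · exact h.2.1
      · rw [h.1] at hodd; exact absurd hodd (by decide)
    obtain ⟨h1, h2⟩ := hord x hx
    rw [hZ] at h1 hz
    rcases (Nat.dvd_prime hR.prime).1 h1 with h3 | h3
    · exact orderOf_eq_one_iff.1 h3
    · rw [h3] at h2
      exact absurd h2 hz
  refine ⟨?_, fun hodd x hx => mult_one_of hF hn0 (hsim hx) (hodd1 hodd x hx)⟩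
  by_contra hcon
  push Not at hcon
  let φ : R → F × F := fun x => (mult hn0 q x, ((x : GL (Fin n) F) : Matrix (Fin n) (Fin n) F).det)
  have hφ : ∀ x y : R, φ x = φ y → x⁻¹ * y ∈ Subgroup.center R := by
    intro x y hxy
    obtain ⟨h1, h2⟩ := Prod.ext_iff.1 hxy
    apply H920.mem_center_of_mem_scalars habs
    apply hcon
    refine Subgroup.mem_inf.2 ⟨(x⁻¹ * y).2, Subgroup.mem_inf.2 ⟨?_, ?_⟩⟩
    · push_cast
      exact div_mem_GU hF hn0 (hsim x.2) (hsim y.2) h1
    · rw [H918.mem_specialLinear]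
      show (((x : GL (Fin n) F)⁻¹ * (y : GL (Fin n) F) : GL (Fin n) F) : Matrix (Fin n) (Fin n) F).det = 1
      rw [Units.val_mul, Matrix.det_mul, ← show ((x : GL (Fin n) F) : Matrix (Fin n) (Fin n) F).det =
        ((y : GL (Fin n) F) : Matrix (Fin n) (Fin n) F).det from h2, ← Matrix.det_mul, ← Units.val_mul,
        inv_mul_cancel, Units.val_one, Matrix.det_one]
  rcases ht with ⟨hodd, hZ, hRc⟩ | ⟨rfl, hZ, hRc⟩
  · have h1 := card_le_mul φ _ hφ ({1} ×ˢ (Polynomial.nthRoots r (1 : F)).toFinset) (by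
      intro x
      rw [Finset.mem_product, Finset.mem_singleton, Multiset.mem_toFinset,
        Polynomial.mem_nthRoots hR.prime.pos]
      refine ⟨hodd1 hodd x x.2, ?_⟩
      show ((x : GL (Fin n) F) : Matrix (Fin n) (Fin n) F).det ^ r = 1
      rw [← Matrix.det_pow, ← Units.val_pow_eq_pow_val]
      have := hexp x x.2
      rw [hZ] at this
      rw [this, Units.val_one, Matrix.det_one])
    rw [hZ, hRc, Finset.card_product, Finset.card_singleton, one_mul] at h1
    have h2 : (Polynomial.nthRoots r (1 : F)).toFinset.card ≤ r :=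
      (Multiset.toFinset_card_le _).trans (Polynomial.card_nthRoots r 1)
    have h3 : r ^ 3 ≤ r ^ (1 + 2 * k) := Nat.pow_le_pow_right hR.prime.pos (by omega)
    have h4 := hR.prime.two_le
    have h5 : r ^ 3 ≤ r * r := h3.trans (h1.trans (Nat.mul_le_mul_left r h2))
    nlinarith
  · have hk2 : 2 ≤ k := by
      by_contra hk2
      have : k = 1 := by omega
      rw [this] at hcard
      omega
    have h1 := card_le_mul φ _ hφ ({1, -1} ×ˢ {1, -1}) (by
      intro x
      have hsq : ∀ a : F, a ^ 2 = 1 → a ∈ ({1, -1} : Finset F) := by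
        intro a ha
        rw [Finset.mem_insert, Finset.mem_singleton]
        exact mul_self_eq_one_iff.1 (by rw [← sq]; exact ha)
      rw [Finset.mem_product]
      constructor
      · apply hsq
        show (mult hn0 q (x : GL (Fin n) F)) ^ 2 = 1
        obtain ⟨h1, h2⟩ := hord x x.2
        rw [hZ] at h1 hz
        rw [← orderOf_dvd_iff_pow_eq_one]
        have h3 : orderOf (mult hn0 q (x : GL (Fin n) F)) ∣ 2 ^ 2 := h1
        obtain ⟨i, hi, h4⟩ := (Nat.dvd_prime_pow Nat.prime_two).1 h3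
        rw [h4] at h2 ⊢
        have hi2 : i = 0 ∨ i = 1 ∨ i = 2 := by omega
        rcases hi2 with rfl | rfl | rfl
        · exact one_dvd _
        · norm_num
        · exact absurd h2 hz
      · apply hsq
        show ((x : GL (Fin n) F) : Matrix (Fin n) (Fin n) F).det ^ 2 = 1
        obtain ⟨c, hc⟩ := (mem_scalars_iff _).1 (H920.pow_of_type hR habs (Or.inr ⟨rfl, hZ, hRc⟩) x x.2)
        have h4 := hexp x x.2
        rw [hZ] at h4
        have hc2 : (c : F) ^ 2 = 1 := by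
          have h5 : (((x : GL (Fin n) F) ^ 2) ^ 2 : GL (Fin n) F) = 1 := by rw [← pow_mul]; exact h4
          have h6 := congrArg Units.val h5
          rw [Units.val_pow_eq_pow_val, hc, smul_pow, one_pow, Units.val_one] at h6
          have h7 := congrFun (congrFun h6 ⟨0, hn0⟩) ⟨0, hn0⟩
          rwa [Matrix.smul_apply, Matrix.one_apply_eq, smul_eq_mul, mul_one] at h7
        rw [← Matrix.det_pow, ← Units.val_pow_eq_pow_val, hc, Matrix.det_smul, Matrix.det_one, mul_one,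
          Fintype.card_fin, hcard]
        obtain ⟨j, rfl⟩ : ∃ j, k = j + 1 := ⟨k - 1, by omega⟩
        rw [pow_succ', pow_mul, hc2, one_pow])
    rw [hZ, hRc, Finset.card_product] at h1
    have h2 : ({1, -1} : Finset F).card ≤ 2 := Finset.card_le_two
    have h3 : 2 ^ 6 ≤ 2 ^ (2 + 2 * k) := Nat.pow_le_pow_right (by norm_num) (by omega)
    have h4 := Nat.mul_le_mul h2 h2
    omega

omit [Fintype F] in
theorem mem_normalizer_mono {R : Subgroup (GL (Fin n) F)} {g : GL (Fin n) F} (hg : g ∈ subgroupNormalizer R)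
    {x : GL (Fin n) F} (hx : x ∈ R) : g * x * g⁻¹ ∈ R :=
  (Subgroup.mem_normalizer_iff.1 hg x).1 hx

end R

/-- **`S3499`, unitary groups, class 6** -/
theorem su_c6 {Q : Type*} [Group Q] [Finite Q] {A : Subgroup Q} {Γ : Subgroup (MulAut Q)} (h : EPT A Γ)
    {F : Type*} [Field F] [Fintype F] {n q : ℕ}
    (m : Model Q (Cfsg.GU n F q ⊓ Cfsg.Geo.specialLinear (Fin n) F)) (hF : Fintype.card F = q ^ 2) (hn : 3 ≤ n)
    (h32 : ¬ (n = 3 ∧ q = 2)) {M : Subgroup (GL (Fin n) F)}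
    (hM : ∃ (r : ℕ) (R : Subgroup (GL (Fin n) F)) (p e k : ℕ), IsSymplecticTypeGroup r R ∧
      ActsAbsolutelyIrreducibly (matrixSet R) ∧ R ≤ similarityGroup (hermForm n F q) ∧ r ≠ p ∧
      IsMinimalFieldFor (Nat.card (Subgroup.center R)) p e F ∧
      ((Odd r ∧ Nat.card (Subgroup.center R) = r ∧ 1 ≤ k ∧ Nat.card R = r ^ (1 + 2 * k)) ∨
        (r = 2 ∧ e = 2 ∧ Nat.card (Subgroup.center R) = 4 ∧ Nat.card R = 2 ^ (2 + 2 * k))) ∧
      M = subgroupNormalizer R ⊓ Cfsg.GU n F q)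
    (hle : m.hat A ≤ M) : False := by
  classical
  obtain ⟨r, R, p, e, k, hR, habs, hsim, hrp, hmin, hty, rfl⟩ := hM
  have hne : Nonempty (Fin n) := ⟨⟨0, by omega⟩⟩
  have ht : H920.IsType r k R := by
    rcases hty with h1 | h1
    · exact Or.inl ⟨h1.1, h1.2.1, h1.2.2.2⟩
    · exact Or.inr ⟨h1.1, h1.2.2.1, h1.2.2.2⟩
  have hcard := H920.card_of_type hR habs ht
  rw [Fintype.card_fin] at hcard
  have hk : 1 ≤ k := by
    rcases Nat.eq_zero_or_pos k with rfl | hk
    · rw [pow_zero] at hcard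
      omega
    · exact hk
  have hZ4 : (Nat.card (Subgroup.center R)).Prime ∨ Nat.card (Subgroup.center R) = 4 := by
    rcases ht with h1 | h1
    · left
      rw [h1.2.1]
      exact hR.prime
    · exact Or.inr h1.2.1
  obtain ⟨hz1, hz2⟩ := z_dvd hF hmin hZ4
  obtain ⟨⟨v, hvR, hvs⟩, hGU⟩ := exists_ns hF hn hR habs ht hk hsim hz2
  have hrq : r ∣ q + 1 := by
    rcases ht with h1 | h1
    · rwa [h1.2.1] at hz1
    · rw [h1.2.1] at hz1
      rw [h1.1]
      exact (by norm_num : 2 ∣ 4).trans hz1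
  have hr0 : (r : F) ≠ 0 := by
    have := hmin.2.1
    rw [Ne, CharP.cast_eq_zero_iff F p, Nat.dvd_prime hR.prime]
    rintro (h1 | h1)
    · exact hmin.1.one_lt.ne' h1
    · exact hrp h1.symm
  -- elements commuting with `v` normalise `R`
  have hcv : ∀ t ∈ H918.SUg n F q, t * v = v * t → t ∈ subgroupNormalizer R := by
    intro t htS htv
    have hmax := m.isMaximalIn h.max
    have h1 : m.hat A ≤ (subgroupNormalizer R ⊓ Cfsg.GU n F q) ⊓ (Cfsg.GU n F q ⊓ Cfsg.Geo.specialLinear (Fin n) F) :=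
      le_inf hle (m.hat_le A)
    rcases hmax.2 _ h1 inf_le_right with h2 | h2
    · have hp : Fact r.Prime := ⟨hR.prime⟩
      have hRA : R ⊓ H918.SUg n F q ≤ m.hat A := by
        rw [← h2]
        rintro x ⟨hx1, hx2⟩
        exact ⟨⟨Subgroup.le_normalizer hx1, (Subgroup.mem_inf.1 hx2).1⟩, hx2⟩
      have h3 := mem_hat_of_comm h m (R0 := R ⊓ H918.SUg n F q) hRA (by
        intro g hg x hx
        have hgS : g ∈ H918.SUg n F q := m.hat_le A hg
        refine ⟨mem_normalizer_mono (hle hg).1 hx.1, ?_⟩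
        exact (H918.SUg n F q).mul_mem ((H918.SUg n F q).mul_mem hgS hx.2) ((H918.SUg n F q).inv_mem hgS)) (r := r)
        (by
          rintro ⟨x, hx⟩
          obtain ⟨j, hj⟩ := hR.pGroup ⟨x, hx.1⟩
          exact ⟨j, Subtype.ext (congrArg (fun y : R => (y : GL (Fin n) F)) hj)⟩) hvR hvs htS htv
      exact (hle h3).1
    · have h3 : t ∈ (subgroupNormalizer R ⊓ Cfsg.GU n F q) ⊓ (Cfsg.GU n F q ⊓ Cfsg.Geo.specialLinear (Fin n) F) := by
        rw [h2]
        exact htS
      exact h3.1.1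
  -- the element `u` of order `r`
  obtain ⟨z, hz, hzr⟩ := H920.full_of_type hR habs ht ⟨v, hvR.1⟩
  have hzs : ((z : R) : GL (Fin n) F) ∈ scalars (Fin n) F := H920.mem_scalars_of_mem_center habs hz
  obtain ⟨c, hc⟩ := (mem_scalars_iff _).1 hzs
  have hzc : ∀ t : GL (Fin n) F, t * (z : GL (Fin n) F) = (z : GL (Fin n) F) * t := by
    intro t
    apply Units.ext
    rw [Units.val_mul, Units.val_mul, hc, Matrix.mul_smul, Matrix.mul_one, Matrix.smul_mul, Matrix.one_mul]
  set u : GL (Fin n) F := (z : GL (Fin n) F) * v with hu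
  have huR : u ∈ R := R.mul_mem z.2 hvR.1
  have hur : u ^ r = 1 := congrArg (fun y : R => (y : GL (Fin n) F)) hzr
  have hcz : (c : F) * (c : F) ^ q = 1 := by
    have h1 := exponent_of_type hR ht _ z.2
    obtain ⟨j, hj⟩ := hz1
    have h2 : ((z : R) : GL (Fin n) F) ^ (q + 1) = 1 := by rw [hj, pow_mul, h1, one_pow]
    have h3 := congrArg Units.val h2
    rw [Units.val_pow_eq_pow_val, hc, smul_pow, one_pow, Units.val_one] at h3
    have h7 := congrFun (congrFun h3 ⟨0, by omega⟩) ⟨0, by omega⟩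
    rw [Matrix.smul_apply, Matrix.one_apply_eq, smul_eq_mul, mul_one] at h7
    rw [← pow_succ', h7]
  have huG : u ∈ Cfsg.GU n F q := by
    apply (Cfsg.GU n F q).mul_mem
    · rw [H918.mem_GU]
      intro x y
      rw [hc, Matrix.smul_mulVec, Matrix.smul_mulVec, Matrix.one_mulVec, Matrix.one_mulVec, herm_smul_left,
        herm_smul_right, ← mul_assoc, hcz, one_mul]
    · exact (Subgroup.mem_inf.1 hvR.2).1
  have huv : ∀ t : GL (Fin n) F, t * u = u * t → t * v = v * t := by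
    intro t ht1
    have h1 : v = (z : GL (Fin n) F)⁻¹ * u := by rw [hu]; group
    have h2 : t * (z : GL (Fin n) F)⁻¹ = (z : GL (Fin n) F)⁻¹ * t := by
      rw [mul_inv_eq_iff_eq_mul, mul_assoc, hzc, inv_mul_cancel_left]
    calc t * v = t * ((z : GL (Fin n) F)⁻¹ * u) := by rw [← h1]
      _ = (t * (z : GL (Fin n) F)⁻¹) * u := (mul_assoc _ _ _).symm
      _ = (z : GL (Fin n) F)⁻¹ * (t * u) := by rw [h2, mul_assoc]
      _ = ((z : GL (Fin n) F)⁻¹ * u) * t := by rw [ht1]; exact (mul_assoc _ _ _).symm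
      _ = v * t := by rw [← h1]
  have hus : u ∉ scalars (Fin n) F := by
    intro h1
    apply hvs
    have h2 : v = (z : GL (Fin n) F)⁻¹ * u := by rw [hu]; group
    rw [h2]
    exact (scalars (Fin n) F).mul_mem ((scalars (Fin n) F).inv_mem hzs) h1
  have hcu : ∀ t ∈ H918.SUg n F q, t * u = u * t → t ∈ subgroupNormalizer R :=
    fun t h1 h2 => hcv t h1 (huv t h2)
  -- `y`
  have hcomm : ∀ a ∈ R, ∀ b ∈ R, ∃ c : Fˣ,
      (a : Matrix (Fin n) (Fin n) F) * b = (c : F) • ((b : Matrix (Fin n) (Fin n) F) * a) := by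
    intro a ha b hb
    obtain ⟨c, hc⟩ := (mem_scalars_iff _).1 (H920.comm_of_type hR habs ht a ha b hb)
    refine ⟨c, ?_⟩
    have h2 : a * b = (a * b * a⁻¹ * b⁻¹) * (b * a) := by group
    have h3 := congrArg Units.val h2
    rw [Units.val_mul, Units.val_mul (a * b * a⁻¹ * b⁻¹), Units.val_mul b a] at h3
    rw [h3, hc, Matrix.smul_mul, Matrix.one_mul]
  obtain ⟨y, hyR, hyu⟩ : ∃ y ∈ R, u * y ≠ y * u := by
    by_contra hcon
    push Not at hcon
    apply hus
    apply H920.mem_scalars_of_mem_center (x := ⟨u, huR⟩) habs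
    rw [Subgroup.mem_center_iff]
    rintro ⟨y, hy⟩
    exact Subtype.ext (hcon y hy).symm
  obtain ⟨μ, hμ⟩ := hcomm u huR y hyR
  have hμ1 : (μ : F) ≠ 1 := by
    intro h1
    rw [h1, one_smul] at hμ
    exact hyu (Units.ext hμ)
  have hμr : (μ : F) ^ r = 1 := by
    have h1 : ∀ j : ℕ, (u : Matrix (Fin n) (Fin n) F) ^ j * y =
        (μ : F) ^ j • ((y : Matrix (Fin n) (Fin n) F) * (u : Matrix (Fin n) (Fin n) F) ^ j) := by
      intro j
      induction j with
      | zero => rw [pow_zero, pow_zero, one_mul, one_smul, mul_one]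
      | succ j ih =>
        rw [pow_succ', mul_assoc, ih, Matrix.mul_smul, ← mul_assoc, hμ, Matrix.smul_mul, smul_smul, mul_assoc,
          ← pow_succ', pow_succ (μ : F), mul_comm]
    have h2 : (u : Matrix (Fin n) (Fin n) F) ^ r = 1 := by
      rw [← Units.val_pow_eq_pow_val, hur, Units.val_one]
    have h3 := h1 r
    rw [h2, one_mul, mul_one] at h3
    have h4 : (1 : F) • (y : Matrix (Fin n) (Fin n) F) = (μ : F) ^ r • (y : Matrix (Fin n) (Fin n) F) := by
      rw [one_smul]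
      exact h3
    exact (H920.smul_gl_injective h4).symm
  have hprim : IsPrimitiveRoot (μ : F) r := by
    have hp : Fact r.Prime := ⟨hR.prime⟩
    rw [IsPrimitiveRoot.iff_orderOf]
    exact orderOf_eq_prime hμr hμ1
  have hrn : r ≤ n := by
    rw [hcard]
    exact Nat.le_self_pow (by omega) r
  rcases hrn.lt_or_eq with hlt | heq
  · -- an isotropic eigenvector
    obtain ⟨w, l, hw0, hl, hlw, hiso⟩ := exists_isotropic_eig hF (u := (u : Matrix (Fin n) (Fin n) F)) (by
      rw [← Units.val_pow_eq_pow_val, hur, Units.val_one]) hprim hr0 hlt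
    have hn4 : 4 ≤ n := by
      by_contra hn4
      have hn3 : n = 3 := by omega
      have h2 : r ^ k = 3 := by rw [← hcard, hn3]
      have h3 : r ∣ 3 := by rw [← h2]; exact dvd_pow_self r (by omega)
      rcases (Nat.dvd_prime Nat.prime_three).1 h3 with h4 | h4
      · exact hR.prime.one_lt.ne' h4
      · omega
    have hll : l * l ^ q = 1 := by
      obtain ⟨j, hj⟩ := hrq
      rw [← pow_succ', hj, pow_mul, hl, one_pow]
    obtain ⟨x, hx0, hx⟩ := exists_trace_zero_ne hF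
    have h1 := hcu _ (H918.tv_mem hF hiso hx) (tv_comm hF huG hll hlw hiso hx)
    refine (isTv_tv hF hiso hx hw0 hx0).not_mem_subgroupNormalizer (by rw [Fintype.card_fin]; omega) habs ?_ h1
    intro a ha b hb
    obtain ⟨c, hc⟩ := hcomm a ha b hb
    exact ⟨c, hc⟩
  · -- `n = r`
    have hodd : Odd r := by
      rcases hR.prime.eq_two_or_odd' with h1 | h1
      · omega
      · exact h1
    have hq : 2 < q := by
      by_contra hq
      have h2 := two_le hF
      have hq2 : q = 2 := by omega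
      have h3 : r ≤ 3 := Nat.le_of_dvd (by norm_num) (by rw [hq2] at hrq; exact hrq)
      exact h32 ⟨by omega, hq2⟩
    have hZ : Nat.card (Subgroup.center R) = r := by
      rcases ht with h1 | h1
      · exact h1.2.1
      · rw [h1.1] at hodd; exact absurd hodd (by decide)
    have hyr : y ^ r = 1 := by
      have := exponent_of_type hR ht y hyR
      rwa [hZ] at this
    subst heq
    refine case_eq hF hn hodd hq huG (hGU hodd hyR) hur hyr hprim hr0 hμ hrq ?_
    intro t htS htu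
    have h1 := hcu t htS htu
    have h2 : y * t * y⁻¹ * t⁻¹ ∈ R := by
      have h3 := R.mul_mem hyR (mem_normalizer_mono h1 (R.inv_mem hyR))
      have h4 : y * t * y⁻¹ * t⁻¹ = y * (t * y⁻¹ * t⁻¹) := by group
      rw [h4]
      exact h3
    obtain ⟨c, hc⟩ := hcomm y hyR _ h2
    refine ⟨c, ?_⟩
    rw [Units.val_mul, Units.val_mul (y * t * y⁻¹ * t⁻¹) y, hc]

end Cfsg.Agent.H932.EP
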